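import Mathlib
import Cfsg.Agent.Comp.Basic

/-! Permutations of seven points. -/

set_option autoImplicit false
set_option maxRecDepth 100000
set_option linter.unusedSimpArgs false

namespace Cfsg.Agent.S7A

open Equiv Equiv.Perm

abbrev S7 : Type := Perm (Fin 7)

def pz : S7 := swap 0 1 * swap 2 3
def pa : S7 := swap 0 2 * swap 1 3
def pb : S7 := swap 0 1 * swap 4 5
def pu : S7 := swap 4 5
/-- the 3-cycle on `4, 5, 6` -/
def pr : S7 := swap 4 5 * swap 5 6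
/-- the 3-cycle on `2, 3, 6` -/
def pq : S7 := swap 2 3 * swap 3 6
/-- `pz ↦ pa ↦ pa pz`, fixes `pu` -/
def p1 : S7 := swap 1 3 * swap 1 2
/-- `pz ↦ pb ↦ pb pz`, fixes `pu pz` -/
def p2 : S7 := swap 0 2 * swap 0 4 * (swap 1 3 * swap 1 5)
/-- the dihedral Sylow subgroup of `A₇` -/
def pD : List S7 := [1, pz, pa, pa * pz, pb, pb * pz, pa * pb, pa * pb * pz]

namespace Pm

open Cfsg.Agent.Comp

/-- digit `i` of `c` -/
noncomputable def ev (c i : ℕ) : ℕ := Nat.mod (Nat.shiftRight c (Nat.mul 3 i)) 8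
noncomputable def pk (a0 a1 a2 a3 a4 a5 a6 : ℕ) : ℕ :=
  Nat.add a0 (Nat.mul 8 (Nat.add a1 (Nat.mul 8 (Nat.add a2 (Nat.mul 8 (Nat.add a3 (Nat.mul 8 (Nat.add a4
    (Nat.mul 8 (Nat.add a5 (Nat.mul 8 a6)))))))))))
/-- the code of a permutation -/
noncomputable def cd (σ : S7) : ℕ := pk (σ 0) (σ 1) (σ 2) (σ 3) (σ 4) (σ 5) (σ 6)
noncomputable def mu (c d : ℕ) : ℕ := force c fun c => force d fun d =>
  pk (ev c (ev d 0)) (ev c (ev d 1)) (ev c (ev d 2)) (ev c (ev d 3)) (ev c (ev d 4)) (ev c (ev d 5)) (ev c (ev d 6))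
noncomputable def pw (c n : ℕ) : ℕ :=
  force c fun c => Nat.rec (motive := fun _ => ℕ) 1754760 (fun _ r => mu r c) n

theorem ev_cd (σ : S7) (i : Fin 7) : ev (cd σ) i = σ i := by
  have h := fun j => (σ j).2
  have h0 := h 0; have h1 := h 1; have h2 := h 2; have h3 := h 3; have h4 := h 4; have h5 := h 5; have h6 := h 6
  have e : ∀ c i : ℕ, ev c i = c / 2 ^ (3 * i) % 8 := fun c i => congrArg (· % 8) (Nat.shiftRight_eq_div_pow c _)
  have e2 : cd σ = σ 0 + 8 * (σ 1 + 8 * (σ 2 + 8 * (σ 3 + 8 * (σ 4 + 8 * (σ 5 + 8 * σ 6))))) := rfl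
  rw [e, e2]
  fin_cases i <;> simp only [Fin.zero_eta, Fin.mk_one, Fin.reduceFinMk] <;> simp only [Fin.isValue, Fin.val_zero,
    Fin.val_one, Fin.coe_ofNat_eq_mod, Nat.reduceMod, Nat.reduceMul, Nat.reducePow] <;> omega

theorem cd_mul (σ τ : S7) : cd (σ * τ) = mu (cd σ) (cd τ) := by
  have k : ∀ i : Fin 7, ev (cd σ) (ev (cd τ) i) = (σ * τ) i := fun i => by rw [ev_cd, ev_cd]; rfl
  simp only [mu, force_eq]
  exact (congr (congr (congr (congr (congr (congr (congrArg pk (k 0)) (k 1)) (k 2)) (k 3)) (k 4)) (k 5)) (k 6)).symm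

theorem cd_one : cd 1 = 1754760 := by decide +kernel

theorem cd_pow (σ : S7) (n : ℕ) : cd (σ ^ n) = pw (cd σ) n := by
  simp only [pw, force_eq]
  induction n with
  | zero => exact cd_one
  | succ n ih => rw [pow_succ, cd_mul, ih]

theorem cd_inj (σ τ : S7) : σ = τ ↔ Nat.beq (cd σ) (cd τ) = true :=
  ⟨fun e => e ▸ Nat.beq_refl _, fun e => Equiv.ext fun i => Fin.ext (by
    rw [← ev_cd, ← ev_cd, Nat.eq_of_beq_eq_true e])⟩

noncomputable def nx (m : ℕ) (k : ℕ → ℕ → Bool) : Bool :=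
  allLT 7 fun a => force a fun a => or' (Nat.testBit m a) (force (Nat.lor m (Nat.shiftLeft 1 a)) (k a))

theorem nx_of {m : ℕ} {k : ℕ → ℕ → Bool} (h : nx m k = true) (a : Fin 7) (n : m.testBit a = false) :
    k a (m ||| 2 ^ (a : ℕ)) = true := by
  have := (allLT_iff _ _).1 h a a.2
  rw [force_eq, n, force_eq] at this
  rw [← Nat.one_shiftLeft]
  exact this

noncomputable def al (p : ℕ → Bool) : Bool :=
  nx 0 fun a0 m => nx m fun a1 m => nx m fun a2 m => nx m fun a3 m => nx m fun a4 m => nx m fun a5 m =>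
    nx m fun a6 _ => force (pk a0 a1 a2 a3 a4 a5 a6) p

theorem al_of {p : ℕ → Bool} (h : al p = true) (σ : S7) : p (cd σ) = true := by
  have k : ∀ i j : Fin 7, i ≠ j → (2 ^ (σ i : ℕ)).testBit (σ j) = false := fun i j n =>
    Nat.testBit_two_pow_of_ne fun e => n (σ.injective (Fin.ext e))
  have h0 := nx_of h (σ 0) (Nat.zero_testBit _)
  have h1 := nx_of h0 (σ 1) (by simp [k])
  have h2 := nx_of h1 (σ 2) (by simp [k])
  have h3 := nx_of h2 (σ 3) (by simp [k])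
  have h4 := nx_of h3 (σ 4) (by simp [k])
  have h5 := nx_of h4 (σ 5) (by simp [k])
  have h6 := nx_of h5 (σ 6) (by simp [k])
  rwa [force_eq] at h6

noncomputable def im (a b : Bool) : Bool := or' (not' a) b
theorem im_iff (a b : Bool) : (a = true → b = true) ↔ im a b = true := by cases a <;> cases b <;> simp [im]

theorem z' : pz⁻¹ = pz := by decide
theorem a' : pa⁻¹ = pa := by decide
theorem r' : pr⁻¹ = pr * pr := by decide
theorem cz : cd pz = 1754305 := by decide +kernel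
theorem ca : cd pa = 1753626 := by decide +kernel
theorem cb : cd pb = 1726081 := by decide +kernel
theorem cu : cd pu = 1726088 := by decide +kernel
theorem cr : cd pr = 1267336 := by decide +kernel

theorem al_of' {p : ℕ → Bool} (h : al p = true) (σ : S7) : ∀ c, cd σ = c → p c = true :=
  fun _ e => e ▸ al_of h σ

end Pm

open Pm Cfsg.Agent.Comp

theorem f1 : ∀ σ : S7, σ * pz = pz * σ → σ * pa = pa * σ → σ * σ = 1 ∨ σ * σ = pr ∨ σ * σ = pr⁻¹ := by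
  intro σ
  simp only [r', cd_inj, cd_mul, cd_pow, cd_one, cz, ca, cb, cu, cr, ← or'_eq_true, ← and'_eq_true, im_iff]
  generalize hc : cd σ = c
  revert c
  exact al_of' (by decide +kernel) σ
theorem f2 : ∀ σ : S7, σ * pz = pz * σ → σ * pb = pb * σ → σ * σ = 1 := by
  intro σ
  simp only [cd_inj, cd_mul, cd_pow, cd_one, cz, ca, cb, cu, cr, ← or'_eq_true, ← and'_eq_true, im_iff]
  generalize hc : cd σ = c
  revert c
  exact al_of' (by decide +kernel) σ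
theorem f3 : ∀ σ : S7, σ * pz = pz * σ → σ * (pa * pu) = pa * pu * σ → σ * σ = 1 := by
  intro σ
  simp only [cd_inj, cd_mul, cd_pow, cd_one, cz, ca, cb, cu, cr, ← or'_eq_true, ← and'_eq_true, im_iff]
  generalize hc : cd σ = c
  revert c
  exact al_of' (by decide +kernel) σ
theorem f4 : ∀ σ : S7, σ * (pa * pb) = pa * pb * σ → σ * σ * (σ * σ) = 1 := by
  intro σ
  simp only [cd_inj, cd_mul, cd_pow, cd_one, cz, ca, cb, cu, cr, ← or'_eq_true, ← and'_eq_true, im_iff]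
  generalize hc : cd σ = c
  revert c
  exact al_of' (by decide +kernel) σ
theorem f5 : ∀ σ : S7, σ * (pu * pz) = pu * pz * σ → σ * pa = pa * σ → σ * σ = 1 := by
  intro σ
  simp only [cd_inj, cd_mul, cd_pow, cd_one, cz, ca, cb, cu, cr, ← or'_eq_true, ← and'_eq_true, im_iff]
  generalize hc : cd σ = c
  revert c
  exact al_of' (by decide +kernel) σ
theorem f6 : ∀ σ : S7, σ * pa * σ⁻¹ ∈ pD → σ * pb * σ⁻¹ ∈ pD → σ ∈ pD ∨ σ * pu ∈ pD := by
  intro σ
  simp only [pD, List.mem_cons, List.not_mem_nil, or_false, mul_inv_eq_iff_eq_mul, cd_inj, cd_mul, cd_pow, cd_one, cz, ca, cb, cu, cr, ← or'_eq_true, ← and'_eq_true, im_iff]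
  generalize hc : cd σ = c
  revert c
  exact al_of' (by decide +kernel) σ
theorem f7 : ∀ σ : S7, σ * pu = pu * σ → σ ^ 60 = 1 ∧ (σ ^ 15 = 1 → σ 4 = 4 ∧ sign σ = 1) := by
  intro σ
  have e : (σ 4 = 4) ↔ Nat.beq (ev (cd σ) 4) 4 = true := by
    rw [show ev (cd σ) 4 = σ 4 from ev_cd σ 4, Nat.beq_eq, Fin.ext_iff]; rfl
  suffices k : σ * pu = pu * σ → σ ^ 60 = 1 ∧ (σ ^ 15 = 1 → σ 4 = 4) from fun h => ⟨(k h).1, fun h' => ⟨(k h).2 h', by
    have := congrArg sign h'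
    rwa [map_pow, map_one, show 15 = 2 * 7 + 1 from rfl, pow_succ, pow_mul, Int.units_sq, one_pow, one_mul] at this⟩⟩
  rw [e]
  simp only [cd_inj, cd_mul, cd_pow, cd_one, cz, ca, cb, cu, cr, ← or'_eq_true, ← and'_eq_true, im_iff]
  generalize hc : cd σ = c
  revert c
  exact al_of' (by decide +kernel) σ
theorem f8' : ∀ σ : S7, σ * pu = pu * σ → σ ^ 15 = 1 →
    (σ * (pz * σ * pz⁻¹)⁻¹ * σ * (pa * σ * pa⁻¹)⁻¹) ^ 15 = 1 →
    (σ * (pz * σ * pz⁻¹)⁻¹ * σ * (pa * (pz * σ * pz⁻¹) * pa⁻¹)⁻¹) ^ 15 = 1 →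
    (σ * (pa * σ * pa⁻¹)⁻¹ * σ * (pa * (pz * σ * pz⁻¹) * pa⁻¹)⁻¹) ^ 15 = 1 → σ = 1 := by
  intro σ h1 h2
  have e : σ⁻¹ = σ ^ 14 := inv_eq_of_mul_eq_one_left (by rw [← pow_succ, h2])
  simp only [mul_inv_rev, z', a', e]
  revert h1 h2
  clear e
  simp only [cd_inj, cd_mul, cd_pow, cd_one, cz, ca, cb, cu, cr, ← or'_eq_true, ← and'_eq_true, im_iff]
  generalize hc : cd σ = c
  revert c
  exact al_of' (by decide +kernel) σ

theorem sq_root {G : Type*} [Group G] {x : G} (h : Odd (orderOf x)) : ∃ k : ℕ, x ^ k * x ^ k = x := by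
  obtain ⟨k, e⟩ := h
  exact ⟨k + 1, by rw [← pow_add, show k + 1 + (k + 1) = orderOf x + 1 by omega, pow_succ, pow_orderOf_eq_one,
    one_mul]⟩

theorem f1o {σ : S7} (h : Odd (orderOf σ)) (h1 : σ * pz = pz * σ) (h2 : σ * pa = pa * σ) :
    σ = 1 ∨ σ = pr ∨ σ = pr⁻¹ := by
  obtain ⟨k, e⟩ := sq_root h
  exact e ▸ f1 _ (Commute.pow_left h1 k) (Commute.pow_left h2 k)

theorem odd15 {σ : S7} (h : Odd (orderOf σ)) (h1 : σ * pu = pu * σ) : σ ^ 15 = 1 :=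
  orderOf_dvd_iff_pow_eq_one.1 ((Nat.Coprime.pow_right 2 h.coprime_two_right).dvd_of_dvd_mul_left
    (orderOf_dvd_of_pow_eq_one (f7 σ h1).1))

/-- a set of elements of odd order of `C(pu)`, closed under products, inverses and conjugation by `pz`, `pa` is trivial -/
theorem f8 {p : S7 → Prop} (h0 : ∀ σ, p σ → Odd (orderOf σ) ∧ σ * pu = pu * σ) (h1 : ∀ σ τ, p σ → p τ → p (σ * τ))
    (h2 : ∀ σ, p σ → p σ⁻¹) (h3 : ∀ σ, p σ → p (pz * σ * pz⁻¹)) (h4 : ∀ σ, p σ → p (pa * σ * pa⁻¹)) {σ : S7}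
    (h : p σ) : σ = 1 :=
  have k := fun σ h => odd15 (h0 σ h).1 (h0 σ h).2
  f8' σ (h0 σ h).2 (k _ h) (k _ (h1 _ _ (h1 _ _ (h1 _ _ h (h2 _ (h3 _ h))) h) (h2 _ (h4 _ h))))
    (k _ (h1 _ _ (h1 _ _ (h1 _ _ h (h2 _ (h3 _ h))) h) (h2 _ (h4 _ (h3 _ h)))))
    (k _ (h1 _ _ (h1 _ _ (h1 _ _ h (h2 _ (h4 _ h))) h) (h2 _ (h4 _ (h3 _ h)))))

end Cfsg.Agent.S7A
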